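import Cfsg.Agent.N2.Ex.Cb.Tal
import Cfsg.Agent.H931.KC.Alcove

/-!
# N2, exceptional groups: the check for a root datum (helper37)
-/

set_option autoImplicit false

namespace Cfsg.Agent.N2.Ex.Cb

open Cfsg Cfsg.Lie Cfsg.Agent.Nodes.RGDChev Cfsg.Agent.H931.KC

/-- shifted digits -/
def dg {l : ℕ} (x : Fin l → ℤ) : List ℕ := List.ofFn fun i => (x i + 8).toNat

/-- the highest root, if the node `0` belongs to the subsystem -/
def hz (D : ChevalleyDatum) (l : ℕ) (z : Bool) : Fin l → ℤ := bif z then hr D l else 0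

/-- the normal form of a root -/
def nrm (D : ChevalleyDatum) (l : ℕ) (z : Bool) (a : Fin l → ℤ) : Fin l → ℤ :=
  if ∀ i, 0 ≤ a i then a else a + hz D l z

/-- the table of the normal forms -/
def tb (D : ChevalleyDatum) (l : ℕ) (z : Bool) : List (List ℕ) :=
  List.ofFn fun s : Fin D.nroots => dg (nrm D l z (vec D l s))

/-- the check for all masks -/
def OK (D : ChevalleyDatum) (l : ℕ) (tab : List (ℕ × ℕ × ℕ)) : Prop :=
  (∀ i, hr D l i ≤ 7) ∧
    ∀ z : Bool, ∀ m ∈ masks l, chk (tb D l z) (dg (0 : Fin l → ℤ)) (dg (hz D l z)) z D.nroots l tab m = true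

theorem ok_of {D : ChevalleyDatum} {l N : ℕ} {tab : List (ℕ × ℕ × ℕ)} {T0 T1 : List (List ℕ)} {h0 h1 : List ℕ}
    (e : (∀ i, hr D l i ≤ 7) ∧ tb D l false = T0 ∧ tb D l true = T1 ∧ dg (0 : Fin l → ℤ) = h0 ∧ dg (hz D l false) = h0 ∧
      dg (hz D l true) = h1 ∧ D.nroots = N)
    (c0 : (masks l).all (chk T0 h0 h0 false N l tab) = true) (c1 : (masks l).all (chk T1 h0 h1 true N l tab) = true) :
    OK D l tab := by
  obtain ⟨e0, rfl, rfl, rfl, e1, rfl, rfl⟩ := e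
  refine ⟨e0, fun z m hm => ?_⟩
  cases z
  · rw [e1]
    exact List.all_eq_true.1 c0 m hm
  · exact List.all_eq_true.1 c1 m hm

theorem all_succ {n : ℕ} {f : List ℕ → Bool} (h0 : (masks n).all (fun m => f (0 :: m)) = true)
    (h1 : (masks n).all (fun m => f (1 :: m)) = true) : (masks (n + 1)).all f = true := by
  rw [masks, List.all_append, List.all_map, List.all_map, Bool.and_eq_true]
  exact ⟨h0, h1⟩

/-- from triples to pairs -/
def Red (tab : List (ℕ × ℕ × ℕ)) (tp : List (ℕ × ℕ)) : Prop :=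
  ∀ e ∈ tab, e.1 ≠ 0 ∧ ∀ m ∈ List.range (e.1 + 1), m ∣ e.1 → m.totient ≤ e.2.2 → ∃ f ∈ tp, m ∣ f.1 ∧ e.2.1 = f.2

instance decRed (tab : List (ℕ × ℕ × ℕ)) (tp : List (ℕ × ℕ)) : Decidable (Red tab tp) := by
  unfold Red
  infer_instance

end Cfsg.Agent.N2.Ex.Cb
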