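import Cfsg.Agent.N2.Ex.Cb.Hm
import Cfsg.Agent.N2.Ex.Cb.TabA
import Cfsg.Agent.N2.Ex.Cb.TabD

/-!
# N2, exceptional groups: the `m`-test, tables (helper37)

`y` of prime order `r ≠ p`: `pair_X : ∃ f ∈ tpX, hm hp y r ∣ f.1 ∧ dd p y = l + f.2`;
`dd_le : n ∣ hm hp y r → dd p y ≤ l + bd l n` for `F₄, E₆, E₇, E₈`.
-/

set_option autoImplicit false
set_option linter.unusedSectionVars false

namespace Cfsg.Agent.N2.Ex.Cb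

open Cfsg Cfsg.Lie Cfsg.Agent.Nodes.RGDChev Cfsg.Agent.DS.Ex Cfsg.Agent.DS.Nt Cfsg.Agent.H316.U6 Cfsg.Agent.H931.KC

variable {p : ℕ} [Fact p.Prime] {r : ℕ} [Fact r.Prime]

theorem pair_G2 {M : CoxeterMatrix (Fin 2)} (hp : IsType chevG2 2 M) (hrp : r ≠ p) {y : YY chevG2 p} (hy : orderOf y = r) :
    ∃ f ∈ tpG2, hm hp y r ∣ f.1 ∧ dd p y = 2 + f.2 := exists_pair okG2 redG2 hrp hy

theorem pair_B2 {M : CoxeterMatrix (Fin 2)} (hp : IsType chevB2 2 M) (hrp : r ≠ p) {y : YY chevB2 p} (hy : orderOf y = r) :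
    ∃ f ∈ tpB2, hm hp y r ∣ f.1 ∧ dd p y = 2 + f.2 := exists_pair okB2 redB2 hrp hy

theorem pair_D4 {M : CoxeterMatrix (Fin 4)} (hp : IsType chevD4 4 M) (hrp : r ≠ p) {y : YY chevD4 p} (hy : orderOf y = r) :
    ∃ f ∈ tpD4, hm hp y r ∣ f.1 ∧ dd p y = 4 + f.2 := exists_pair okD4 redD4 hrp hy

theorem pair_F4 {M : CoxeterMatrix (Fin 4)} (hp : IsType chevF4 4 M) (hrp : r ≠ p) {y : YY chevF4 p} (hy : orderOf y = r) :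
    ∃ f ∈ tpF4, hm hp y r ∣ f.1 ∧ dd p y = 4 + f.2 := exists_pair okF4 redF4 hrp hy

theorem pair_E6 {M : CoxeterMatrix (Fin 6)} (hp : IsType chevE6 6 M) (hrp : r ≠ p) {y : YY chevE6 p} (hy : orderOf y = r) :
    ∃ f ∈ tpE6, hm hp y r ∣ f.1 ∧ dd p y = 6 + f.2 := exists_pair okE6 redE6 hrp hy

theorem pair_E7 {M : CoxeterMatrix (Fin 7)} (hp : IsType chevE7 7 M) (hrp : r ≠ p) {y : YY chevE7 p} (hy : orderOf y = r) :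
    ∃ f ∈ tpE7, hm hp y r ∣ f.1 ∧ dd p y = 7 + f.2 := exists_pair okE7 redE7 hrp hy

theorem pair_E8 {M : CoxeterMatrix (Fin 8)} (hp : IsType chevE8 8 M) (hrp : r ≠ p) {y : YY chevE8 p} (hy : orderOf y = r) :
    ∃ f ∈ tpE8, hm hp y r ∣ f.1 ∧ dd p y = 8 + f.2 := exists_pair okE8 redE8 hrp hy

/-- the table of the type of rank `l` -/
def tpT (l : ℕ) : List (ℕ × ℕ) := if l = 4 then tpF4 else if l = 6 then tpE6 else if l = 7 then tpE7 else tpE8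

/-- the maximal number of roots if `n` divides `hm` -/
def bd (l n : ℕ) : ℕ := (((tpT l).filter fun f => f.1 % n == 0).map Prod.snd).foldr max 0

theorem bd_F4 : bd 4 1 = 32 ∧ bd 4 2 = 18 ∧ bd 4 3 = 6 ∧ bd 4 4 = 8 ∧ bd 4 6 = 6 ∧ bd 4 8 = 0 ∧ bd 4 12 = 0 := by decide
theorem bd_E6 : bd 6 1 = 40 ∧ bd 6 2 = 40 ∧ bd 6 3 = 24 ∧ bd 6 4 = 12 ∧ bd 6 5 = 2 ∧ bd 6 6 = 24 ∧ bd 6 8 = 0 ∧ bd 6 9 = 0 ∧
    bd 6 10 = 2 ∧ bd 6 12 = 0 ∧ bd 6 18 = 0 := by decide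
theorem bd_E7 : bd 7 1 = 72 ∧ bd 7 2 = 72 ∧ bd 7 3 = 30 ∧ bd 7 4 = 26 ∧ bd 7 5 = 6 ∧ bd 7 6 = 30 ∧ bd 7 7 = 0 ∧ bd 7 8 = 6 ∧
    bd 7 9 = 0 ∧ bd 7 10 = 6 ∧ bd 7 12 = 6 ∧ bd 7 14 = 0 ∧ bd 7 18 = 0 := by decide
theorem bd_E8 : bd 8 1 = 128 ∧ bd 8 2 = 126 ∧ bd 8 3 = 72 ∧ bd 8 4 = 60 ∧ bd 8 5 = 20 ∧ bd 8 6 = 72 ∧ bd 8 7 = 2 ∧
    bd 8 8 = 24 ∧ bd 8 9 = 6 ∧ bd 8 10 = 20 ∧ bd 8 12 = 24 ∧ bd 8 14 = 2 ∧ bd 8 15 = 0 ∧ bd 8 18 = 6 ∧ bd 8 20 = 0 ∧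
    bd 8 24 = 0 ∧ bd 8 30 = 0 := by decide

theorem le_bd {l n : ℕ} {f : ℕ × ℕ} (hf : f ∈ tpT l) (h : n ∣ f.1) : f.2 ≤ bd l n :=
  List.le_max_of_le (List.mem_map_of_mem (List.mem_filter.2 ⟨hf, by simpa using Nat.mod_eq_zero_of_dvd h⟩)) le_rfl

variable {D : ChevalleyDatum} {l : ℕ} {M : CoxeterMatrix (Fin l)} {hp : IsType D l M}

/-- **The table**, uniform form. -/
theorem pair (hD : Typ D) (hrp : r ≠ p) {y : YY D p} (hy : orderOf y = r) :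
    ∃ f ∈ tpT l, hm hp y r ∣ f.1 ∧ dd p y = l + f.2 := by
  have hl := typ_l hp
  rcases hD with rfl | rfl | rfl | rfl
  · obtain rfl := hl.1 rfl
    exact pair_F4 hp hrp hy
  · obtain rfl := hl.2.1 rfl
    exact pair_E6 hp hrp hy
  · obtain rfl := hl.2.2.1 rfl
    exact pair_E7 hp hrp hy
  · obtain rfl := hl.2.2.2 rfl
    exact pair_E8 hp hrp hy

/-- **The `m`-test.** -/
theorem dd_le (hD : Typ D) (hrp : r ≠ p) {y : YY D p} (hy : orderOf y = r) {n : ℕ} (hn : n ∣ hm hp y r) :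
    dd p y ≤ l + bd l n := by
  obtain ⟨f, hf, h1, h2⟩ := pair (hp := hp) hD hrp hy
  rw [h2]
  exact Nat.add_le_add_left (le_bd hf (hn.trans h1)) l

/-- the centraliser in the finite group -/
theorem cn_le_bd (hD : Typ D) (hrp : r ≠ p) {q : ℕ} {K : Type*} [Group K] (m : MData hp p q K) {a : K} (ha : orderOf a = r)
    {n : ℕ} (hn : n ∣ hm hp (m.ι a) r) : cn a ≤ nmk D l * (q ^ bd l n * (q + 1) ^ l) :=
  cn_le' m (by rw [ha]; exact (Nat.coprime_primes Fact.out Fact.out).2 hrp)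
    (dd_le hD hrp (by rw [orderOf_injective m.ι m.inj, ha]) hn)

/-- the order of `q` -/
theorem ord_dvd (hrp : r ≠ p) {q : ℕ} {K : Type*} [Group K] (m : MData hp p q K) {a : K} (ha : a ^ r = 1) :
    orderOf (q : ZMod r) ∣ hm hp (m.ι a) r := by
  have h := ord_q_dvd (hp := hp) hrp (by rw [← map_pow, ha, map_one]) m.frob m.fr (m.fix a)
  rwa [m.hq] at h

end Cfsg.Agent.N2.Ex.Cb
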