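import Mathlib

/-!
# N2, exceptional groups: counting classes of roots, list level (helper37)
-/

set_option autoImplicit false

namespace Cfsg.Agent.N2.Ex.Cb

/-- the code of the digits selected by a mask -/
def cd : List ℕ → List ℕ → ℕ
  | m :: ms, x :: xs => m * x + 16 * cd ms xs
  | [], _ => 0
  | _ :: _, [] => 0

example := @cd.eq_def

/-- insertion into a table of multiplicities -/
def ins (x : ℕ) : List (ℕ × ℕ) → List (ℕ × ℕ)
  | [] => [(x, 1)]
  | e :: r => bif Nat.beq x e.1 then (e.1, e.2 + 1) :: r else e :: ins x r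

example := @ins.eq_def

/-- the table of multiplicities -/
def tally : List ℕ → List (ℕ × ℕ)
  | [] => []
  | x :: r => ins x (tally r)

example := @tally.eq_def

/-- the gcd of the numbers of classes of the same size -/
def gg (K : List ℕ) : ℕ := ((tally ((tally K).map Prod.snd)).map Prod.snd).foldr Nat.gcd 0

/-- all masks -/
def masks : ℕ → List (List ℕ)
  | 0 => [[]]
  | n + 1 => (masks n).map (0 :: ·) ++ (masks n).map (1 :: ·)

example := @masks.eq_def

/-- the keys of the roots outside the subsystem -/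
def keys (T : List (List ℕ)) (h0 h1 m : List ℕ) : List ℕ :=
  (T.map (cd m)).filter fun y => !(Nat.beq y (cd m h0) || Nat.beq y (cd m h1))

/-- membership in the table -/
def memT (a b c : ℕ) (tab : List (ℕ × ℕ × ℕ)) : Bool :=
  tab.any fun e => Nat.beq a e.1 && (Nat.beq b e.2.1 && Nat.beq c e.2.2)

/-- the check for one mask -/
def chk (T : List (List ℕ)) (h0 h1 : List ℕ) (z : Bool) (N l : ℕ) (tab : List (ℕ × ℕ × ℕ)) (m : List ℕ) : Bool :=
  (keys T h0 h1 m).isEmpty || memT (gg (keys T h0 h1 m)) (N - (keys T h0 h1 m).length) (bif z then l else m.sum) tab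

theorem memT_spec {a b c : ℕ} {tab : List (ℕ × ℕ × ℕ)} (h : memT a b c tab = true) : (a, b, c) ∈ tab := by
  obtain ⟨e, he, h1⟩ := List.any_eq_true.1 h
  simp only [Bool.and_eq_true, Nat.beq_eq] at h1
  obtain ⟨rfl, rfl, rfl⟩ := h1
  exact he

theorem mem_ins (x y : ℕ) (T : List (ℕ × ℕ)) : y ∈ (ins x T).map Prod.fst ↔ y = x ∨ y ∈ T.map Prod.fst := by
  induction T with
  | nil => simp [ins]
  | cons e r ih =>
    rw [ins]
    cases h : Nat.beq x e.1
    · simp only [cond_false, List.map_cons, List.mem_cons, ih]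
      tauto
    · have h1 : x = e.1 := Nat.eq_of_beq_eq_true h
      simp only [cond_true, List.map_cons, List.mem_cons, h1]
      tauto

theorem nodup_ins (x : ℕ) {T : List (ℕ × ℕ)} (hT : (T.map Prod.fst).Nodup) : ((ins x T).map Prod.fst).Nodup := by
  induction T with
  | nil => simp [ins]
  | cons e r ih =>
    rw [ins]
    rw [List.map_cons, List.nodup_cons] at hT
    cases h : Nat.beq x e.1
    · rw [cond_false, List.map_cons, List.nodup_cons, mem_ins]
      refine ⟨?_, ih hT.2⟩
      rintro (h1 | h1)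
      · exact Nat.ne_of_beq_eq_false h h1.symm
      · exact hT.1 h1
    · rw [cond_true, List.map_cons, List.nodup_cons]
      exact hT

theorem val_ins (x : ℕ) (f : ℕ → ℕ) {T : List (ℕ × ℕ)} (hT : (T.map Prod.fst).Nodup) (h1 : ∀ e ∈ T, e.2 = f e.1)
    (h2 : x ∉ T.map Prod.fst → f x = 0) : ∀ e ∈ ins x T, e.2 = f e.1 + if x = e.1 then 1 else 0 := by
  induction T with
  | nil =>
    intro e he
    rw [ins, List.mem_singleton] at he
    subst he
    simp [h2 (by simp)]
  | cons a r ih =>
    intro e he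
    rw [ins] at he
    rw [List.map_cons, List.nodup_cons] at hT
    cases h : Nat.beq x a.1
    · have h3 := Nat.ne_of_beq_eq_false h
      rw [h, cond_false, List.mem_cons] at he
      rcases he with rfl | he
      · rw [if_neg h3, add_zero]
        exact h1 _ List.mem_cons_self
      · refine ih hT.2 (fun e he => h1 e (List.mem_cons_of_mem _ he)) (fun h4 => h2 ?_) e he
        rw [List.map_cons, List.mem_cons]
        rintro (h5 | h5)
        exacts [h3 h5, h4 h5]
    · have h3 : x = a.1 := Nat.eq_of_beq_eq_true h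
      rw [h, cond_true, List.mem_cons] at he
      rcases he with rfl | he
      · rw [if_pos h3, h1 a List.mem_cons_self]
      · rw [if_neg, add_zero]
        · exact h1 e (List.mem_cons_of_mem _ he)
        · intro h4
          exact hT.1 (by rw [← h3, h4]; exact List.mem_map_of_mem he)

theorem tally_spec (K : List ℕ) : ((tally K).map Prod.fst).Nodup ∧ (∀ y, y ∈ (tally K).map Prod.fst ↔ y ∈ K) ∧
    ∀ e ∈ tally K, e.2 = K.count e.1 := by
  induction K with
  | nil => simp [tally]
  | cons x r ih =>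
    obtain ⟨h1, h2, h3⟩ := ih
    rw [tally]
    refine ⟨nodup_ins x h1, fun y => by rw [mem_ins, h2, List.mem_cons], fun e he => ?_⟩
    rw [val_ins x (fun y => r.count y) h1 h3 (fun h => List.count_eq_zero.2 fun h4 => h ((h2 x).2 h4)) e he,
      List.count_cons]
    simp

theorem count_tally (K : List ℕ) (s : ℕ) :
    ((tally K).map Prod.snd).count s = (K.toFinset.filter fun x => K.count x = s).card := by
  obtain ⟨h1, h2, h3⟩ := tally_spec K
  have h4 : (tally K).map Prod.snd = ((tally K).map Prod.fst).map fun x => K.count x := by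
    rw [List.map_map]
    exact List.map_congr_left h3
  have h5 : K.toFinset = ((tally K).map Prod.fst).toFinset := by
    ext y
    rw [List.mem_toFinset, List.mem_toFinset, h2]
  rw [h4, h5, List.count, List.countP_map, List.countP_eq_length_filter, ← List.toFinset_card_of_nodup (h1.filter _),
    List.toFinset_filter]
  congr 1
  ext y
  simp

theorem dvd_gg {m : ℕ} {K : List ℕ} (h : ∀ s, m ∣ (K.toFinset.filter fun x => K.count x = s).card) : m ∣ gg K := by
  have h1 : ∀ L : List ℕ, (∀ a ∈ L, m ∣ a) → m ∣ L.foldr Nat.gcd 0 := fun L hL => by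
    induction L with
    | nil => exact dvd_zero m
    | cons a L ih => exact Nat.dvd_gcd (hL a List.mem_cons_self) (ih fun b hb => hL b (List.mem_cons_of_mem _ hb))
  refine h1 _ fun a ha => ?_
  obtain ⟨e, he, rfl⟩ := List.mem_map.1 ha
  rw [(tally_spec _).2.2 e he, count_tally]
  exact h _

theorem mem_masks {l : ℕ} (f : Fin l → ℕ) (hf : ∀ i, f i = 0 ∨ f i = 1) : List.ofFn f ∈ masks l := by
  induction l with
  | zero => simp [masks]
  | succ n ih =>
    rw [List.ofFn_succ, masks, List.mem_append]
    have h1 := ih (fun i => f i.succ) fun i => hf _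
    rcases hf 0 with h | h <;> rw [h]
    · exact Or.inl (List.mem_map_of_mem h1)
    · exact Or.inr (List.mem_map_of_mem h1)

theorem cd_eq_iff {l : ℕ} (f x y : Fin l → ℕ) (hf : ∀ i, f i = 0 ∨ f i = 1) (hx : ∀ i, x i < 16) (hy : ∀ i, y i < 16) :
    cd (List.ofFn f) (List.ofFn x) = cd (List.ofFn f) (List.ofFn y) ↔ ∀ i, f i ≠ 0 → x i = y i := by
  induction l with
  | zero => simp
  | succ n ih =>
    rw [List.ofFn_succ, List.ofFn_succ, List.ofFn_succ, cd, cd, Fin.forall_fin_succ,
      ← ih (fun i => f i.succ) (fun i => x i.succ) (fun i => y i.succ) (fun i => hf _) (fun i => hx _) fun i => hy _]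
    have h1 := hx 0
    have h2 := hy 0
    rcases hf 0 with h | h <;> rw [h] <;> omega

/-- **The product trick.** -/
theorem core {ι F : Type} [Fintype ι] [Field F] (P : ι → Prop) [DecidablePred P] (ρ : ι ≃ ι) (key : ι → ℕ) (β : ι → F)
    (k : F) (hP : ∀ i, P (ρ i) ↔ P i) (h0 : ∀ i, P i → β i ≠ 0) (hβ : ∀ i, β (ρ i) = k * β i)
    (h1 : ∀ i j, P i → P j → (key (ρ i) = key (ρ j) ↔ key i = key j))
    (h2 : ∀ i j, P i → P j → key i = key j → β i = β j) (s : ℕ) :
    k ^ (((Finset.univ.filter P).image key).filter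
      fun x => (Finset.univ.filter fun j => P j ∧ key j = x).card = s).card = 1 := by
  classical
  set X := ((Finset.univ.filter P).image key).filter fun x => (Finset.univ.filter fun j => P j ∧ key j = x).card = s
    with hX
  have h3 : ∀ x : X, ∃ i, P i ∧ key i = x := fun x => by
    obtain ⟨i, hi, h⟩ := Finset.mem_image.1 (Finset.mem_filter.1 x.2).1
    exact ⟨i, (Finset.mem_filter.1 hi).2, h⟩
  choose r hr1 hr2 using h3
  have h4 : ∀ x : X, key (ρ (r x)) ∈ X := fun x => by
    refine Finset.mem_filter.2 ⟨Finset.mem_image.2 ⟨ρ (r x), Finset.mem_filter.2 ⟨Finset.mem_univ _, (hP _).2 (hr1 x)⟩, rfl⟩, ?_⟩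
    rw [← (Finset.mem_filter.1 x.2).2]
    symm
    refine Finset.card_equiv ρ fun j => ?_
    simp only [Finset.mem_filter, Finset.mem_univ, true_and, hP]
    exact and_congr_right fun hj => by rw [h1 _ _ hj (hr1 x), hr2]
  let π : X → X := fun x => ⟨_, h4 x⟩
  have h5 : Function.Injective π := fun x y h => Subtype.ext (by
    rw [← hr2 x, ← hr2 y]
    exact (h1 _ _ (hr1 x) (hr1 y)).1 (congrArg Subtype.val h))
  have h6 : ∏ x : X, β (r (π x)) = ∏ x : X, β (r x) :=
    Function.Bijective.prod_comp (Finite.injective_iff_bijective.1 h5) fun x => β (r x)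
  have h7 : ∀ x : X, β (r (π x)) = k * β (r x) := fun x => by
    rw [← hβ]
    exact h2 _ _ (hr1 _) ((hP _).2 (hr1 x)) (hr2 _)
  simp only [h7, Finset.prod_mul_distrib, Finset.prod_const, Finset.card_univ, Fintype.card_coe] at h6
  exact (mul_eq_right₀ (Finset.prod_ne_zero_iff.2 fun x _ => h0 _ (hr1 x))).1 h6

/-- the list form -/
theorem core_list {N : ℕ} {F : Type} [Field F] (q : ℕ → Bool) (ρ : Fin N ≃ Fin N) (key : Fin N → ℕ) (β : Fin N → F)
    (k : F) (hP : ∀ i, q (key (ρ i)) ↔ q (key i)) (h0 : ∀ i, q (key i) → β i ≠ 0) (hβ : ∀ i, β (ρ i) = k * β i)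
    (h1 : ∀ i j, q (key i) → q (key j) → (key (ρ i) = key (ρ j) ↔ key i = key j))
    (h2 : ∀ i j, q (key i) → q (key j) → key i = key j → β i = β j) :
    orderOf k ∣ gg ((List.ofFn key).filter q) := by
  refine dvd_gg fun s => orderOf_dvd_of_pow_eq_one ?_
  rw [← core (fun i => q (key i) = true) ρ key β k hP h0 hβ h1 h2 s]
  congr 2
  ext x
  simp only [Finset.mem_filter, List.mem_toFinset, List.mem_filter, List.mem_ofFn, Finset.mem_image, Finset.mem_univ,
    true_and]
  refine and_congr ⟨fun ⟨⟨i, h⟩, h'⟩ => ⟨i, h ▸ h', h⟩, fun ⟨i, h, h'⟩ => ⟨⟨i, h'⟩, h' ▸ h⟩⟩ (Eq.congr_left ?_)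
  rw [List.ofFn_eq_map, List.count, List.countP_filter, List.countP_map, List.countP_eq_length_filter,
    ← List.toFinset_card_of_nodup ((List.nodup_finRange N).filter _), List.toFinset_filter]
  congr 1
  ext j
  simp [and_comm]

theorem length_filter_ofFn {N : ℕ} (q : ℕ → Bool) (key : Fin N → ℕ) :
    ((List.ofFn key).filter q).length = (Finset.univ.filter fun i => q (key i) = true).card := by
  rw [List.ofFn_eq_map, ← List.countP_eq_length_filter, List.countP_map, List.countP_eq_length_filter,
    ← List.toFinset_card_of_nodup ((List.nodup_finRange N).filter _), List.toFinset_filter]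
  congr 1
  ext j
  simp

end Cfsg.Agent.N2.Ex.Cb
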